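import Cfsg.Agent.H447.RC.Dim
import Cfsg.Agent.H822.Cls.Defs

/-!
# S4191 [FIX] (helper447): fixed points of elements of prime order in primitive solvable linear groups

`D : H822.Cls.Prim L W F`, `z` of prime order `p` centralizes `A`, `|S / A| = e²`, `k²` the number of fixed points of `z` on
`S / A`: `|C_W(z)| ^ (p e) ≤ |W| ^ (e + (p - 1) k)`.
-/

set_option autoImplicit false
set_option linter.unusedSectionVars false

namespace Cfsg.Agent.H447.RC

open Module TensorProduct
open scoped Pointwise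

section

variable {L W F : Type*} [Group L] [Finite L] [AddCommGroup W] [Finite W] [Nontrivial W] [DistribMulAction L W]
  [Field F] [Module F W] (D : Cfsg.Agent.H822.Cls.Prim L W F)

/-- the `F`-linear action of `C(A)` -/
def rho0 : Subgroup.centralizer (D.A : Set L) →* Module.End F W where
  toFun g :=
    { toFun := fun w => (g : L) • w
      map_add' := smul_add _
      map_smul' := fun c w => by
        have h1 : (g : L) ∈ D.σ.ker := by rw [D.σ_ker]; exact g.2
        rw [D.σ_spec, MonoidHom.mem_ker.1 h1]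
        rfl }
  map_one' := by
    refine LinearMap.ext fun w => ?_
    exact one_smul L w
  map_mul' g h := by
    refine LinearMap.ext fun w => ?_
    exact mul_smul (g : L) (h : L) w

theorem rho0_apply (g : Subgroup.centralizer (D.A : Set L)) (w : W) : rho0 D g w = (g : L) • w := rfl

/-- base change -/
noncomputable def rhoK (K : Type*) [Field K] [Algebra F K] : Subgroup.centralizer (D.A : Set L) →* Module.End K (K ⊗[F] W) :=
  ((Module.End.baseChangeHom F K W : Module.End F W →ₐ[F] Module.End K (K ⊗[F] W)) : Module.End F W →* _).comp (rho0 D)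

theorem rhoK_apply (K : Type*) [Field K] [Algebra F K] (g : Subgroup.centralizer (D.A : Set L)) :
    rhoK D K g = (rho0 D g).baseChange K := rfl

theorem A_le_cent : D.A ≤ Subgroup.centralizer (D.A : Set L) := D.A_le.trans D.S_le

theorem rhoK_A (K : Type*) [Field K] [Algebra F K] (a : D.A) :
    rhoK D K ⟨a, A_le_cent D a.2⟩ = algebraMap F K ((D.ι a : Fˣ) : F) • 1 := by
  rw [rhoK_apply]
  have h1 : rho0 D ⟨a, A_le_cent D a.2⟩ = ((D.ι a : Fˣ) : F) • 1 := by
    refine LinearMap.ext fun w => ?_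
    exact D.ι_spec a w
  rw [h1, LinearMap.baseChange_smul, algebraMap_smul]
  congr 1
  exact LinearMap.baseChange_one _ _

theorem eq_one_of_rhoK {K : Type*} [Field K] [Algebra F K] (a : D.A) (h : rhoK D K ⟨a, A_le_cent D a.2⟩ = 1) : a = 1 := by
  rw [rhoK_A] at h
  have h0 : Nontrivial (K ⊗[F] W) := by
    have : FiniteDimensional F W := Module.Finite.of_finite
    apply Module.nontrivial_of_finrank_pos (R := K)
    rw [Module.finrank_baseChange]
    exact Module.finrank_pos
  obtain ⟨v, hv⟩ := exists_ne (0 : K ⊗[F] W)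
  have h1 := LinearMap.congr_fun h v
  simp only [LinearMap.smul_apply, Module.End.one_apply] at h1
  have h2 : algebraMap F K ((D.ι a : Fˣ) : F) = 1 := smul_left_injective K hv (by simpa using h1)
  apply D.ι_inj
  rw [map_one]
  apply Units.ext
  apply (algebraMap F K).injective
  rw [h2]
  simp

theorem nontrivial_K (K : Type*) [Field K] [Algebra F K] : Nontrivial (K ⊗[F] W) := by
  have : FiniteDimensional F W := Module.Finite.of_finite
  apply Module.nontrivial_of_finrank_pos (R := K)
  rw [Module.finrank_baseChange]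
  exact Module.finrank_pos

/-- the pairing of `x`, `y` kills elements of order the characteristic -/
theorem no_char {l : ℕ} (hl : l.Prime) (hlF : (l : F) = 0) {x : L} (hx : x ∈ D.S) (hxl : x ^ l = 1) : x = 1 := by
  have hcomm : ∀ y ∈ D.S, x * y = y * x := by
    intro y hy
    -- the commutators `[x, y]` lie in `A`, which centralises `S`
    have hA : ∀ a ∈ D.A, ∀ s ∈ D.S, a * s = s * a := fun a ha s hs => (D.S_le hs a ha)
    set a : L := x * y * x⁻¹ * y⁻¹ with ha
    have haA : a ∈ D.A := D.comm_mem x hx y hy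
    have h1 : x * y * x⁻¹ = a * y := by rw [ha]; group
    have h2 : ∀ n : ℕ, x ^ n * y * (x ^ n)⁻¹ = a ^ n * y := by
      intro n
      induction n with
      | zero => simp
      | succ n ih =>
        have h3 : x ^ (n + 1) * y * (x ^ (n + 1))⁻¹ = x * (x ^ n * y * (x ^ n)⁻¹) * x⁻¹ := by
          rw [pow_succ']; group
        rw [h3, ih]
        have h4 : x * (a ^ n * y) * x⁻¹ = (x * a ^ n) * (y * x⁻¹) := by group
        rw [h4, ← hA _ (pow_mem haA n) x hx, show a ^ n * x * (y * x⁻¹) = a ^ n * (x * y * x⁻¹) by group, h1, ← mul_assoc,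
          ← pow_succ]
    have h5 := h2 l
    rw [hxl, one_mul, inv_one, mul_one] at h5
    have h6 : a ^ l = 1 := (mul_eq_right.1 h5.symm)
    have h7 : (D.ι ⟨a, haA⟩) ^ l = 1 := by
      rw [← map_pow]
      have : (⟨a, haA⟩ : D.A) ^ l = 1 := Subtype.ext h6
      rw [this, map_one]
    have h8 : D.ι ⟨a, haA⟩ = 1 := by
      have hch : CharP F l := by
        have := (CharP.exists F)
        obtain ⟨q, hq⟩ := this
        have hq1 : q ∣ l := (CharP.cast_eq_zero_iff F q l).1 hlF
        rcases (Nat.dvd_prime hl).1 hq1 with h | h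
        · subst h
          exact absurd (CharP.char_ne_one F 1) (by simp)
        · rwa [h] at hq
      have hlf : Fact l.Prime := ⟨hl⟩
      apply Units.ext
      have h9 : ((D.ι ⟨a, haA⟩ : Fˣ) : F) ^ l = 1 := by
        rw [← Units.val_pow_eq_pow_val, h7, Units.val_one]
      have h10 : (((D.ι ⟨a, haA⟩ : Fˣ) : F) - 1) ^ l = 0 := by
        rw [sub_pow_char, h9, one_pow, sub_self]
      rw [Units.val_one]
      exact sub_eq_zero.1 (pow_eq_zero_iff hl.ne_zero |>.1 h10)
    have h11 : (⟨a, haA⟩ : D.A) = 1 := D.ι_inj (by rw [h8, map_one])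
    have h12 : a = 1 := congrArg Subtype.val h11
    rw [h12, one_mul] at h1
    exact mul_inv_eq_iff_eq_mul.1 h1
  have hxA : x ∈ D.A := by
    apply D.cent_le
    rw [Subgroup.mem_centralizer_iff]
    intro y hy
    exact (hcomm y hy).symm
  have h7 : (D.ι ⟨x, hxA⟩) ^ l = 1 := by
    rw [← map_pow]
    have : (⟨x, hxA⟩ : D.A) ^ l = 1 := Subtype.ext hxl
    rw [this, map_one]
  have h8 : D.ι ⟨x, hxA⟩ = 1 := by
    have hch : CharP F l := by
      obtain ⟨q, hq⟩ := (CharP.exists F)
      have hq1 : q ∣ l := (CharP.cast_eq_zero_iff F q l).1 hlF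
      rcases (Nat.dvd_prime hl).1 hq1 with h | h
      · subst h
        exact absurd (CharP.char_ne_one F 1) (by simp)
      · rwa [h] at hq
    have hlf : Fact l.Prime := ⟨hl⟩
    apply Units.ext
    have h9 : ((D.ι ⟨x, hxA⟩ : Fˣ) : F) ^ l = 1 := by
      rw [← Units.val_pow_eq_pow_val, h7, Units.val_one]
    have h10 : (((D.ι ⟨x, hxA⟩ : Fˣ) : F) - 1) ^ l = 0 := by
      rw [sub_pow_char, h9, one_pow, sub_self]
    rw [Units.val_one]
    exact sub_eq_zero.1 (pow_eq_zero_iff hl.ne_zero |>.1 h10)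
  have h11 : (⟨x, hxA⟩ : D.A) = 1 := D.ι_inj (by rw [h8, map_one])
  exact congrArg Subtype.val h11

theorem card_S_ne : (Nat.card D.S : F) ≠ 0 := by
  have hF : Finite F := by
    obtain ⟨w, hw⟩ := exists_ne (0 : W)
    exact Finite.of_injective (fun c : F => c • w) (smul_left_injective F hw)
  intro h0
  obtain ⟨l, hl⟩ := CharP.exists F
  have hlp : l.Prime := (CharP.char_is_prime_or_zero F l).resolve_right (CharP.char_ne_zero_of_finite F l)
  have hdvd : l ∣ Nat.card D.S := (CharP.cast_eq_zero_iff F l _).1 h0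
  have : Fact l.Prime := ⟨hlp⟩
  obtain ⟨x, hx⟩ := exists_prime_orderOf_dvd_card' l hdvd
  have h1 : (x : L) ^ l = 1 := by
    rw [← Subgroup.coe_pow, ← hx, pow_orderOf_eq_one, Subgroup.coe_one]
  have h2 := no_char D hlp (CharP.cast_eq_zero F l) x.2 h1
  have h3 : x = 1 := Subtype.ext h2
  rw [h3, orderOf_one] at hx
  exact hlp.one_lt.ne hx

theorem dat (K : Type*) [Field K] [Algebra F K] : Dat (rhoK D K) (D.A.subgroupOf (Subgroup.centralizer (D.A : Set L)))
    (D.S.subgroupOf (Subgroup.centralizer (D.A : Set L))) where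
  An := by
    have := D.A_normal
    infer_instance
  Sn := by
    have := D.S_normal
    infer_instance
  le := Subgroup.comap_mono D.A_le
  sc := by
    rintro ⟨a, ha'⟩ ha
    exact ⟨_, rhoK_A D K ⟨a, ha⟩⟩
  comm := fun x hx y hy => D.comm_mem x hx y hy
  nd := by
    intro y hy h
    apply D.cent_le
    rw [Subgroup.mem_centralizer_iff]
    intro x hx
    have hxc : x ∈ Subgroup.centralizer (D.A : Set L) := D.S_le hx
    have h1 := h ⟨x, hxc⟩ hx
    have haA : x * y * x⁻¹ * (y : L)⁻¹ ∈ D.A := D.comm_mem x hx y hy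
    have h2 := eq_one_of_rhoK D ⟨x * y * x⁻¹ * (y : L)⁻¹, haA⟩ h1
    have h3 : x * y * x⁻¹ * (y : L)⁻¹ = 1 := congrArg Subtype.val h2
    rw [mul_inv_eq_one, mul_inv_eq_iff_eq_mul] at h3
    exact h3
  card := by
    rw [Nat.card_congr (Subgroup.subgroupOfEquivOfLe D.S_le).toEquiv]
    intro h
    apply card_S_ne D
    apply (algebraMap F K).injective
    rw [map_natCast, h, map_zero]

end

theorem card_map_eq {G : Type*} [Group G] (A S : Subgroup G) [A.Normal] :
    Nat.card (S.map (QuotientGroup.mk' A)) = A.relIndex S := by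
  rw [← Subgroup.relIndex_ker, QuotientGroup.ker_mk']

/-- **[FIX]**, with an inequality -/
theorem fix_le {L W F : Type*} [Group L] [Finite L] [AddCommGroup W] [Finite W] [Nontrivial W] [DistribMulAction L W]
    [Field F] [Module F W] (D : Cfsg.Agent.H822.Cls.Prim L W F) {p : ℕ} (hp : p.Prime) (hpF : ¬ p ∣ Nat.card F)
    {z : L} (hz : z ∈ Subgroup.centralizer (D.A : Set L)) (hzp : z ^ p = 1) (hz1 : z ≠ 1) {e k : ℕ}
    (he : D.A.relIndex D.S = e ^ 2) {Y : Subgroup L} (hY : ∀ s, s ∈ Y ↔ s ∈ D.S ∧ z * s * z⁻¹ * s⁻¹ ∈ D.A)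
    (hk : D.A.relIndex Y ≤ k ^ 2) :
    Nat.card {w : W // z • w = w} ^ (p * e) ≤ Nat.card W ^ (e + (p - 1) * k) := by
  have hF : Finite F := by
    obtain ⟨w, hw⟩ := exists_ne (0 : W)
    exact Finite.of_injective (fun c : F => c • w) (smul_left_injective F hw)
  have hfd : FiniteDimensional F W := Module.Finite.of_finite
  let K := AlgebraicClosure F
  have hpK : NeZero (p : K) := by
    refine ⟨fun h => hpF ?_⟩
    have h1 : (p : F) = 0 := by
      apply (algebraMap F K).injective
      rw [map_natCast, h, map_zero]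
    have h2 : addOrderOf (1 : F) ∣ p := addOrderOf_dvd_of_nsmul_eq_zero (by rw [nsmul_one, h1])
    have h3 : addOrderOf (1 : F) = p := by
      refine (hp.eq_one_or_self_of_dvd _ h2).resolve_left fun h => ?_
      rw [AddMonoid.addOrderOf_eq_one_iff] at h
      exact one_ne_zero h
    rw [← h3]
    exact addOrderOf_dvd_natCard 1
  obtain ⟨ζ, hζ⟩ := HasEnoughRootsOfUnity.exists_primitiveRoot K p
  set C := Subgroup.centralizer (D.A : Set L) with hC
  let zC : C := ⟨z, hz⟩
  have hzo : orderOf zC = p := by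
    have : Fact p.Prime := ⟨hp⟩
    apply orderOf_eq_prime
    · exact Subtype.ext hzp
    · intro h
      exact hz1 (congrArg Subtype.val h)
  have hAn := D.A_normal
  have hnt := nontrivial_K (W := W) (F := F) K
  have hYC : Y ≤ C := fun s hs => D.S_le ((hY s).1 hs).1
  have main := (dat D K).main hp hζ hzo (Y := Y.subgroupOf C) (e := e) (k := k) (fun s => hY s) (by
      rw [card_map_eq, ← he]
      exact Subgroup.relIndex_subgroupOf D.S_le) (by
      rw [card_map_eq]
      exact (Subgroup.relIndex_subgroupOf hYC).trans_le hk)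
  rw [Module.finrank_baseChange] at main
  -- the fixed space over `F`
  have h1 : finrank F (LinearMap.ker (rho0 D zC - 1)) ≤ finrank K (LinearMap.ker (rhoK D K zC - 1)) := by
    let U := LinearMap.ker (rho0 D zC - 1)
    have h2 : Function.Injective (U.subtype.baseChange K) :=
      Module.Flat.lTensor_preserves_injective_linearMap (M := K) U.subtype U.subtype_injective
    have h3 : ∀ x : K ⊗[F] U, U.subtype.baseChange K x ∈ LinearMap.ker (rhoK D K zC - 1) := by
      intro x
      rw [LinearMap.mem_ker, LinearMap.sub_apply, sub_eq_zero, rhoK_apply]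
      have h4 : (rho0 D zC) ∘ₗ U.subtype = U.subtype := by
        refine LinearMap.ext fun u => ?_
        have := u.2
        rw [LinearMap.mem_ker, LinearMap.sub_apply, sub_eq_zero] at this
        exact this
      show ((rho0 D zC).baseChange K ∘ₗ U.subtype.baseChange K) x = _
      rw [← LinearMap.baseChange_comp, h4]
      rfl
    have h5 := LinearMap.finrank_le_finrank_of_injective (f := (U.subtype.baseChange K).codRestrict _ h3) (by
      intro x y hxy
      exact h2 (congrArg Subtype.val hxy))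
    rwa [Module.finrank_baseChange] at h5
  have h2 : Nat.card {w : W // z • w = w} = Nat.card F ^ finrank F (LinearMap.ker (rho0 D zC - 1)) := by
    rw [← Module.natCard_eq_pow_finrank]
    refine Nat.card_congr (Equiv.subtypeEquivRight fun w => ?_)
    rw [LinearMap.mem_ker, LinearMap.sub_apply, sub_eq_zero]
    rfl
  rw [h2, Module.natCard_eq_pow_finrank (K := F) (V := W), ← pow_mul, ← pow_mul]
  refine Nat.pow_le_pow_right Nat.card_pos ?_
  calc finrank F (LinearMap.ker (rho0 D zC - 1)) * (p * e) ≤ finrank K (LinearMap.ker (rhoK D K zC - 1)) * (p * e) :=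
        Nat.mul_le_mul_right _ h1
    _ = p * e * finrank K (LinearMap.ker (rhoK D K zC - 1)) := mul_comm _ _
    _ ≤ _ := main

/-- **[FIX]** -/
theorem fix {L W F : Type*} [Group L] [Finite L] [AddCommGroup W] [Finite W] [Nontrivial W] [DistribMulAction L W]
    [Field F] [Module F W] (D : Cfsg.Agent.H822.Cls.Prim L W F) {p : ℕ} (hp : p.Prime) (hpF : ¬ p ∣ Nat.card F)
    {z : L} (hz : z ∈ Subgroup.centralizer (D.A : Set L)) (hzp : z ^ p = 1) (hz1 : z ≠ 1) {e k : ℕ}
    (he : D.A.relIndex D.S = e ^ 2) {Y : Subgroup L} (hY : ∀ s, s ∈ Y ↔ s ∈ D.S ∧ z * s * z⁻¹ * s⁻¹ ∈ D.A)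
    (hk : D.A.relIndex Y = k ^ 2) :
    Nat.card {w : W // z • w = w} ^ (p * e) ≤ Nat.card W ^ (e + (p - 1) * k) :=
  fix_le D hp hpF hz hzp hz1 he hY hk.le

/-- **[FIX]**, `W` may be zero -/
theorem fix_le' {L W F : Type*} [Group L] [Finite L] [AddCommGroup W] [Finite W] [DistribMulAction L W]
    [Field F] [Module F W] (D : Cfsg.Agent.H822.Cls.Prim L W F) {p : ℕ} (hp : p.Prime) (hpF : ¬ p ∣ Nat.card F)
    {z : L} (hz : z ∈ Subgroup.centralizer (D.A : Set L)) (hzp : z ^ p = 1) (hz1 : z ≠ 1) {e k : ℕ}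
    (he : D.A.relIndex D.S = e ^ 2) {Y : Subgroup L} (hY : ∀ s, s ∈ Y ↔ s ∈ D.S ∧ z * s * z⁻¹ * s⁻¹ ∈ D.A)
    (hk : D.A.relIndex Y ≤ k ^ 2) :
    Nat.card {w : W // z • w = w} ^ (p * e) ≤ Nat.card W ^ (e + (p - 1) * k) := by
  rcases subsingleton_or_nontrivial W with hW | hW
  · have h1 : Nat.card {w : W // z • w = w} ≤ 1 := Finite.card_le_one_iff_subsingleton.2 inferInstance
    have h2 : 1 ≤ Nat.card W := Nat.card_pos
    calc Nat.card {w : W // z • w = w} ^ (p * e) ≤ 1 ^ (p * e) := Nat.pow_le_pow_left h1 _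
      _ = 1 := one_pow _
      _ = 1 ^ (e + (p - 1) * k) := (one_pow _).symm
      _ ≤ _ := Nat.pow_le_pow_left h2 _
  · exact fix_le D hp hpF hz hzp hz1 he hY hk

end Cfsg.Agent.H447.RC
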