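import Cfsg.Agent.H447.RC.Com

/-!
# S4191 [FIX], part 2: the decomposition of `End V` under a group of symplectic type (helper447)

`ρ : G → End V`, `A ≤ S` normal subgroups of `G`, `A` acts by scalars, `[S, S] ≤ A`, the commutator pairing on `S / A` is
nondegenerate and `|S|` is invertible in `K`.
-/

set_option autoImplicit false
set_option linter.unusedSectionVars false

namespace Cfsg.Agent.H447.RC

open Module

variable {K V G : Type*} [Field K] [AddCommGroup V] [Module K V] [Group G]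

/-- the hypotheses -/
structure Dat (ρ : G →* Module.End K V) (A S : Subgroup G) : Prop where
  An : A.Normal
  Sn : S.Normal
  le : A ≤ S
  sc : ∀ a ∈ A, ∃ c : K, ρ a = c • 1
  comm : ∀ x ∈ S, ∀ y ∈ S, x * y * x⁻¹ * y⁻¹ ∈ A
  nd : ∀ y ∈ S, (∀ x ∈ S, ρ (x * y * x⁻¹ * y⁻¹) = 1) → y ∈ A
  card : (Nat.card S : K) ≠ 0

variable (ρ : G →* Module.End K V)

/-- conjugation -/
def cj (g : G) : Module.End K V →ₗ[K] Module.End K V where
  toFun T := ρ g * T * ρ g⁻¹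
  map_add' S T := by rw [mul_add, add_mul]
  map_smul' c T := by rw [mul_smul_comm, smul_mul_assoc]; rfl

theorem cj_apply (g : G) (T : Module.End K V) : cj ρ g T = ρ g * T * ρ g⁻¹ := rfl

theorem cj_mul (g h : G) (T : Module.End K V) : cj ρ (g * h) T = cj ρ g (cj ρ h T) := by
  simp only [cj_apply, mul_inv_rev, map_mul, mul_assoc]

theorem cj_one (T : Module.End K V) : cj ρ 1 T = T := by simp [cj_apply]

theorem rho_inv (g : G) : ρ g * ρ g⁻¹ = 1 := by rw [← map_mul, mul_inv_cancel, map_one]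

theorem rho_inv' (g : G) : ρ g⁻¹ * ρ g = 1 := by rw [← map_mul, inv_mul_cancel, map_one]

theorem cj_map_mul (g : G) (T U : Module.End K V) : cj ρ g (T * U) = cj ρ g T * cj ρ g U := by
  simp only [cj_apply]
  calc ρ g * (T * U) * ρ g⁻¹ = ρ g * T * 1 * U * ρ g⁻¹ := by rw [mul_one, mul_assoc (ρ g) T U]
    _ = ρ g * T * (ρ g⁻¹ * ρ g) * U * ρ g⁻¹ := by rw [rho_inv']
    _ = ρ g * T * ρ g⁻¹ * (ρ g * U * ρ g⁻¹) := by simp only [mul_assoc]

theorem cj_rho (g x : G) : cj ρ g (ρ x) = ρ (g * x * g⁻¹) := by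
  simp only [cj_apply, map_mul]

theorem smul_rho_inj [Nontrivial V] {x : G} {c c' : K} (h : c • ρ x = c' • ρ x) : c = c' := by
  have h1 : c • (1 : Module.End K V) = c' • 1 := by
    rw [← rho_inv ρ x, ← smul_mul_assoc, h, smul_mul_assoc]
  obtain ⟨v, hv⟩ := exists_ne (0 : V)
  have h2 := LinearMap.congr_fun h1 v
  simp only [LinearMap.smul_apply, Module.End.one_apply] at h2
  exact smul_left_injective K hv h2

open Classical in
/-- the pairing -/
noncomputable def bb (y x : G) : K := if h : ∃ c : K, ρ (y * x * y⁻¹ * x⁻¹) = c • 1 then h.choose else 0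

variable {ρ} {A S : Subgroup G} (D : Dat ρ A S)

include D

theorem Dat.bb_spec {x y : G} (hx : x ∈ S) (hy : y ∈ S) : ρ (y * x * y⁻¹ * x⁻¹) = bb ρ y x • 1 := by
  have h : ∃ c : K, ρ (y * x * y⁻¹ * x⁻¹) = c • 1 := D.sc _ (D.comm y hy x hx)
  rw [bb, dif_pos h]
  exact h.choose_spec

theorem Dat.cj_eq {x y : G} (hx : x ∈ S) (hy : y ∈ S) : cj ρ y (ρ x) = bb ρ y x • ρ x := by
  have h1 : y * x * y⁻¹ = (y * x * y⁻¹ * x⁻¹) * x := by group
  rw [cj_rho, h1, map_mul, D.bb_spec hx hy, smul_mul_assoc, one_mul]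

variable [Nontrivial V]

theorem Dat.bb_eq {x y : G} (hx : x ∈ S) (hy : y ∈ S) {c : K} (h : cj ρ y (ρ x) = c • ρ x) : bb ρ y x = c :=
  smul_rho_inj ρ (x := x) (by rw [← D.cj_eq hx hy, h])

theorem Dat.bb_mul_left {x y y' : G} (hx : x ∈ S) (hy : y ∈ S) (hy' : y' ∈ S) :
    bb ρ (y * y') x = bb ρ y x * bb ρ y' x := by
  apply D.bb_eq hx (S.mul_mem hy hy')
  rw [cj_mul, D.cj_eq hx hy', map_smul, D.cj_eq hx hy, smul_smul, mul_comm]

theorem Dat.bb_mul_right {x x' y : G} (hx : x ∈ S) (hx' : x' ∈ S) (hy : y ∈ S) :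
    bb ρ y (x * x') = bb ρ y x * bb ρ y x' := by
  apply D.bb_eq (S.mul_mem hx hx') hy
  rw [map_mul, cj_map_mul, D.cj_eq hx hy, D.cj_eq hx' hy, smul_mul_smul_comm]

theorem Dat.bb_one_left {x : G} (hx : x ∈ S) : bb ρ 1 x = 1 := by
  apply D.bb_eq hx S.one_mem
  rw [cj_one, one_smul]

theorem Dat.bb_one_right {y : G} (hy : y ∈ S) : bb ρ y 1 = 1 := by
  apply D.bb_eq S.one_mem hy
  rw [map_one, cj_apply, mul_one, rho_inv, one_smul]

theorem Dat.bb_inv {x y : G} (hx : x ∈ S) (hy : y ∈ S) : bb ρ y⁻¹ x = bb ρ y x⁻¹ := by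
  have h1 : bb ρ y x * bb ρ y⁻¹ x = 1 := by
    rw [← D.bb_mul_left hx hy (S.inv_mem hy), mul_inv_cancel, D.bb_one_left hx]
  have h2 : bb ρ y x * bb ρ y x⁻¹ = 1 := by
    rw [← D.bb_mul_right hx (S.inv_mem hx) hy, mul_inv_cancel, D.bb_one_right hy]
  exact (eq_inv_of_mul_eq_one_right h1).trans (eq_inv_of_mul_eq_one_right h2).symm

theorem Dat.bb_right_A {x y : G} (hx : x ∈ A) (hy : y ∈ S) : bb ρ y x = 1 := by
  apply D.bb_eq (D.le hx) hy
  obtain ⟨c, hc⟩ := D.sc x hx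
  rw [one_smul, hc, map_smul, cj_apply, mul_one, rho_inv]

theorem Dat.cj_A {y : G} (hy : y ∈ A) (T : Module.End K V) : cj ρ y T = T := by
  obtain ⟨c, hc⟩ := D.sc y hy
  have h1 : cj ρ y T = T * (ρ y * ρ y⁻¹) := by
    rw [cj_apply, hc, smul_mul_assoc, one_mul, smul_mul_assoc, smul_mul_assoc, one_mul, mul_smul_comm]
  rw [h1, rho_inv, mul_one]

theorem Dat.bb_left_A {x y : G} (hx : x ∈ S) (hy : y ∈ A) : bb ρ y x = 1 := by
  apply D.bb_eq hx (D.le hy)
  rw [D.cj_A hy, one_smul]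

theorem Dat.bb_conj {x y : G} (hx : x ∈ S) (hy : y ∈ S) (z : G) : bb ρ (z * y * z⁻¹) (z * x * z⁻¹) = bb ρ y x := by
  apply D.bb_eq (D.Sn.conj_mem x hx z) (D.Sn.conj_mem y hy z)
  have h1 := D.cj_eq hx hy
  rw [cj_rho] at h1
  rw [cj_rho, show z * y * z⁻¹ * (z * x * z⁻¹) * (z * y * z⁻¹)⁻¹ = z * (y * x * y⁻¹) * z⁻¹ by group, ← cj_rho ρ z x,
    ← cj_rho ρ z (y * x * y⁻¹), h1, map_smul]

theorem Dat.exists_bb_left {x : G} (hx : x ∈ S) (hxA : x ∉ A) : ∃ y ∈ S, bb ρ y x ≠ 1 := by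
  by_contra hcon
  push Not at hcon
  apply hxA
  apply D.nd x hx
  intro y hy
  rw [D.bb_spec hx hy, hcon y hy, one_smul]

theorem Dat.exists_bb_right {y : G} (hy : y ∈ S) (hyA : y ∉ A) : ∃ x ∈ S, bb ρ y x ≠ 1 := by
  by_contra hcon
  push Not at hcon
  apply hyA
  apply D.nd y hy
  intro x hx
  have h1 := D.bb_spec hx hy
  rw [hcon x hx, one_smul] at h1
  rw [show x * y * x⁻¹ * y⁻¹ = (y * x * y⁻¹ * x⁻¹)⁻¹ by group]
  have h2 := rho_inv' ρ (y * x * y⁻¹ * x⁻¹)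
  rwa [h1, mul_one] at h2

variable [Fintype S]

theorem Dat.sum_left_A {x : G} (hx : x ∈ A) : ∑ y : S, bb ρ y x = (Nat.card S : K) := by
  rw [Finset.sum_congr rfl fun y _ => D.bb_right_A hx y.2]
  simp

theorem Dat.sum_left {x : G} (hx : x ∈ S) (hxA : x ∉ A) : ∑ y : S, bb ρ y x = 0 := by
  let f : S →* K :=
    { toFun := fun y => bb ρ y x
      map_one' := D.bb_one_left hx
      map_mul' := fun y y' => D.bb_mul_left hx y.2 y'.2 }
  apply sum_hom_units_eq_zero f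
  intro h
  obtain ⟨y, hy, hyx⟩ := D.exists_bb_left hx hxA
  exact hyx (DFunLike.congr_fun h ⟨y, hy⟩)

theorem Dat.sum_right_A {y : G} (hy : y ∈ A) : ∑ x : S, bb ρ y x = (Nat.card S : K) := by
  rw [Finset.sum_congr rfl fun x _ => D.bb_left_A x.2 hy]
  simp

theorem Dat.sum_right {y : G} (hy : y ∈ S) (hyA : y ∉ A) : ∑ x : S, bb ρ y x = 0 := by
  let f : S →* K :=
    { toFun := fun x => bb ρ y x
      map_one' := D.bb_one_right hy
      map_mul' := fun x x' => D.bb_mul_right x.2 x'.2 hy }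
  apply sum_hom_units_eq_zero f
  intro h
  obtain ⟨x, hx, hyx⟩ := D.exists_bb_right hy hyA
  exact hyx (DFunLike.congr_fun h ⟨x, hx⟩)

omit D [Nontrivial V] in
/-- the (unnormalised) projection to the weight space of `x` -/
noncomputable def wp (ρ : G →* Module.End K V) (S : Subgroup G) [Fintype S] (x : G) :
    Module.End K V →ₗ[K] Module.End K V := ∑ y : S, bb ρ (y : G)⁻¹ x • cj ρ (y : G)

omit D [Nontrivial V] in
theorem wp_apply (x : G) (T : Module.End K V) : wp ρ S x T = ∑ y : S, bb ρ (y : G)⁻¹ x • cj ρ (y : G) T := by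
  rw [wp, LinearMap.sum_apply]
  rfl

omit D [Nontrivial V] [Fintype S] in
/-- the weight space of `x` -/
def ws (ρ : G →* Module.End K V) (S : Subgroup G) (x : G) : Submodule K (Module.End K V) where
  carrier := {T | ∀ y ∈ S, cj ρ y T = bb ρ y x • T}
  zero_mem' := by simp
  add_mem' := by
    intro T U hT hU y hy
    rw [map_add, hT y hy, hU y hy, smul_add]
  smul_mem' := by
    intro c T hT y hy
    rw [map_smul, hT y hy, smul_comm]

omit D [Nontrivial V] [Fintype S] in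
theorem mem_ws {x : G} {T : Module.End K V} : T ∈ ws ρ S x ↔ ∀ y ∈ S, cj ρ y T = bb ρ y x • T := Iff.rfl

theorem Dat.wp_mem {x : G} (hx : x ∈ S) (T : Module.End K V) : wp ρ S x T ∈ ws ρ S x := by
  intro w hw
  rw [wp_apply, map_sum, Finset.smul_sum]
  refine Fintype.sum_equiv (Equiv.mulLeft (⟨w, hw⟩ : S)) _ _ fun y => ?_
  rw [map_smul, ← cj_mul, smul_smul]
  have h1 : ((Equiv.mulLeft (⟨w, hw⟩ : S) y : S) : G) = w * y := rfl
  rw [h1, mul_inv_rev, D.bb_mul_left hx (S.inv_mem y.2) (S.inv_mem hw)]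
  congr 1
  rw [mul_comm, mul_assoc, ← D.bb_mul_left hx (S.inv_mem hw) hw, inv_mul_cancel, D.bb_one_left hx, mul_one]

theorem Dat.wp_of_mem {x x' : G} (hx : x ∈ S) (hx' : x' ∈ S) {T : Module.End K V} (hT : T ∈ ws ρ S x) :
    wp ρ S x' T = (∑ y : S, bb ρ y (x'⁻¹ * x)) • T := by
  rw [wp_apply, Finset.sum_smul]
  refine Finset.sum_congr rfl fun y _ => ?_
  rw [hT y y.2, smul_smul, D.bb_mul_right (S.inv_mem hx') hx y.2, D.bb_inv hx' y.2]

theorem Dat.sum_wp (T : Module.End K V) : ∑ x : S, wp ρ S x T = ((Nat.card S : K) * Nat.card A) • T := by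
  classical
  have h1 : ∀ x : S, wp ρ S x T = ∑ y : S, bb ρ (y : G)⁻¹ x • cj ρ (y : G) T := fun x => wp_apply _ _
  rw [Finset.sum_congr rfl fun x _ => h1 x, Finset.sum_comm]
  have h2 : ∀ y : S, ∑ x : S, bb ρ (y : G)⁻¹ x • cj ρ (y : G) T = if (y : G) ∈ A then (Nat.card S : K) • T else 0 := by
    intro y
    rw [← Finset.sum_smul]
    split_ifs with h
    · rw [D.sum_right_A (A.inv_mem h), D.cj_A h]
    · rw [D.sum_right (S.inv_mem y.2) (fun h' => h (by simpa using A.inv_mem h')), zero_smul]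
  rw [Finset.sum_congr rfl fun y _ => h2 y, ← Finset.sum_filter, Finset.sum_const, ← Nat.cast_smul_eq_nsmul K,
    smul_smul, mul_comm]
  congr 2
  have h3 : Nat.card A = Nat.card {y : S // (y : G) ∈ A} :=
    Nat.card_congr ⟨fun a => ⟨⟨a, D.le a.2⟩, a.2⟩, fun y => ⟨y.1, y.2⟩, fun _ => rfl, fun _ => rfl⟩
  rw [h3, Nat.card_eq_fintype_card, Fintype.card_subtype]

theorem Dat.wp_conj {x : G} (hx : x ∈ S) (z : G) {T : Module.End K V} (hT : cj ρ z T = T) :
    wp ρ S (z * x * z⁻¹) T = cj ρ z (wp ρ S x T) := by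
  rw [wp_apply, wp_apply, map_sum]
  have hn := D.Sn
  refine (Fintype.sum_equiv (MulAut.conjNormal z : MulAut S).toEquiv _ _ fun y => ?_).symm
  have h1 : (((MulAut.conjNormal z : MulAut S).toEquiv y : S) : G) = z * y * z⁻¹ := MulAut.conjNormal_apply z y
  rw [h1, map_smul, ← cj_mul, show (z * (y : G) * z⁻¹)⁻¹ = z * (y : G)⁻¹ * z⁻¹ by group,
    D.bb_conj hx (S.inv_mem y.2)]
  congr 1
  rw [show z * (y : G) * z⁻¹ = z * y * z⁻¹ from rfl]
  have h2 : cj ρ z⁻¹ T = T := by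
    conv_lhs => rw [← hT]
    rw [← cj_mul, inv_mul_cancel, cj_one]
  rw [cj_mul ρ (z * y) z⁻¹, h2]

theorem Dat.wp_A {x a : G} (hx : x ∈ S) (ha : a ∈ A) (T : Module.End K V) : wp ρ S (x * a) T = wp ρ S x T := by
  rw [wp_apply, wp_apply]
  refine Finset.sum_congr rfl fun y _ => ?_
  rw [D.bb_mul_right hx (D.le ha) (S.inv_mem y.2), D.bb_right_A ha (S.inv_mem y.2), mul_one]

end Cfsg.Agent.H447.RC
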